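import Cfsg.Agent.Lib.Helper85.Nat.Main

set_option autoImplicit false

/-!
Higman's theorem (S3050): vocabulary.  `SL₂(F)`, `F` of characteristic 2, acts on the abelian group `V`.
-/

namespace Cfsg.Agent.Lib.Helper85.NatSL2

open Matrix

section defs

variable (F : Type*) [Field F] (V : Type*) [AddCommGroup V] [DistribMulAction (SL F) V]

/-- the elements `g = up s * lo s⁻¹` (of order 3 in characteristic 2) satisfy `1 + g + g⁻¹ = 0` on `V` -/
def Ord3 : Prop :=
  ∀ s : F, s ≠ 0 → ∀ v : V, v + SL2.up s • SL2.lo s⁻¹ • v + SL2.lo s⁻¹ • SL2.up s • v = 0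

/-- the structure of a direct sum of natural modules -/
structure Nice : Prop where
  dec : ∀ v : V, ∃ v0 ∈ fixUp F V, ∃ v1 ∈ fixLo F V, v = v0 + v1
  int : ∀ v : V, v ∈ fixUp F V → v ∈ fixLo F V → v = 0
  two : ∀ v : V, v + v = 0
  quad : Quad F V
  hLo : ∀ {t : F}, t ≠ 0 → ∀ {v : V}, v ∈ fixLo F V → ww t • v = SL2.up t • v - v
  hUp : ∀ {t : F}, t ≠ 0 → ∀ {v : V}, v ∈ fixUp F V → ww t • v = SL2.lo (-t⁻¹) • v - v

end defs

/-- every element has 2-power order -/
def TwoGrp (V : Type*) [AddCommGroup V] : Prop := ∀ v : V, ∃ k : ℕ, 2 ^ k • v = 0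

end Cfsg.Agent.Lib.Helper85.NatSL2
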