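import Cfsg.Agent.Lib.Helper85.Hig.Basic

set_option autoImplicit false

namespace Cfsg.Agent.Lib.Helper85.NatSL2

open Matrix

variable {F : Type*} [Field F] {V : Type*} [AddCommGroup V] [DistribMulAction (SL F) V]

theorem up_mulVec (x : F) (a : Fin 2 → F) :
    (SL2.up x : Matrix (Fin 2) (Fin 2) F) *ᵥ a = ![a 0 + x * a 1, a 1] := by
  funext i
  fin_cases i <;> simp [Matrix.mulVec, dotProduct, Fin.sum_univ_two]

theorem lo_mulVec (y : F) (a : Fin 2 → F) :
    (SL2.lo y : Matrix (Fin 2) (Fin 2) F) *ᵥ a = ![a 0, y * a 0 + a 1] := by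
  funext i
  fin_cases i <;> simp [Matrix.mulVec, dotProduct, Fin.sum_univ_two]

/-- every nonzero vector of `fixUp` generates a natural submodule -/
theorem exists_embedding (h : Nice F V) {v0 : V} (hv0 : v0 ∈ fixUp F V) (hne : v0 ≠ 0) :
    ∃ Ψ : (Fin 2 → F) →+ V, Function.Injective Ψ ∧
      (∀ (g : SL F) a, g • Ψ a = Ψ ((g : Matrix (Fin 2) (Fin 2) F) *ᵥ a)) ∧ Ψ ![1, 0] = v0 := by
  have hq := h.quad
  have hLo : ∀ {t : F}, t ≠ 0 → ∀ {v : V}, v ∈ fixLo F V → ww t • v = SL2.up t • v - v := h.hLo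
  have hUp : ∀ {t : F}, t ≠ 0 → ∀ {v : V}, v ∈ fixUp F V → ww t • v = SL2.lo (-t⁻¹) • v - v := h.hUp
  obtain ⟨Ψ, hΨ⟩ : ∃ Ψ : (Fin 2 → F) →+ V, ∀ a, Ψ a = sc (a 0) v0 + ww (-1 : F) • sc (a 1) v0 :=
    ⟨{ toFun := fun a => sc (a 0) v0 + ww (-1 : F) • sc (a 1) v0
       map_zero' := by simp [sc_zero_left]
       map_add' := fun a b => by
        simp only [Pi.add_apply, sc_add_left hq, smul_add]; abel }, fun _ => rfl⟩
  have hup : ∀ (x : F) a, SL2.up x • Ψ a = Ψ ((SL2.up x : Matrix (Fin 2) (Fin 2) F) *ᵥ a) := by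
    intro x a
    rw [up_mulVec, hΨ, hΨ, smul_add, sc_mem hq _ _ x, up_smul]
    simp only [Matrix.cons_val_zero, Matrix.cons_val_one]
    rw [sc_add_left hq, sc_mul hq hLo _ _ hv0]
    abel
  have hlo : ∀ (y : F) a, SL2.lo y • Ψ a = Ψ ((SL2.lo y : Matrix (Fin 2) (Fin 2) F) *ᵥ a) := by
    intro y a
    rw [lo_mulVec, hΨ, hΨ, smul_add, ww_smul_fixUp neg_one_ne (sc_mem hq _ _) y,
      lo_smul hLo hUp y (sc_mem hq _ _)]
    simp only [Matrix.cons_val_zero, Matrix.cons_val_one]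
    rw [sc_add_left hq, sc_mul hq hLo _ _ hv0, smul_add]
    abel
  have hall : ∀ (g : SL F) a, g • Ψ a = Ψ ((g : Matrix (Fin 2) (Fin 2) F) *ᵥ a) := by
    intro g
    refine sl_induction (fun g => ∀ a, g • Ψ a = Ψ ((g : Matrix (Fin 2) (Fin 2) F) *ᵥ a)) hup hlo ?_ g
    intro g h hg hh a
    rw [mul_smul, hh, hg, Matrix.mulVec_mulVec]
    rfl
  have hinj : Function.Injective Ψ := by
    rw [injective_iff_map_eq_zero]
    intro a ha
    rw [hΨ] at ha
    have h1 : sc (a 0) v0 ∈ fixLo F V := by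
      have : sc (a 0) v0 = -(ww (-1 : F) • sc (a 1) v0) := eq_neg_of_add_eq_zero_left ha
      rw [this]
      exact (fixLo F V).neg_mem (ww_smul_fixUp neg_one_ne (sc_mem hq _ _))
    have h2 := h.int _ (sc_mem hq _ _) h1
    rw [h2, zero_add] at ha
    have h3 : sc (a 1) v0 = 0 := by
      have := congrArg (fun u => (ww (-1 : F))⁻¹ • u) ha
      simpa using this
    funext i
    fin_cases i
    · exact sc_eq_zero hLo hv0 hne h2
    · exact sc_eq_zero hLo hv0 hne h3
  refine ⟨Ψ, hinj, hall, ?_⟩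
  rw [hΨ]
  simp only [Matrix.cons_val_zero, Matrix.cons_val_one, sc_zero_left, smul_zero, add_zero,
    sc_one hLo hv0]

/-- the natural module is irreducible -/
theorem std_irr (T : AddSubgroup (Fin 2 → F))
    (hT : ∀ (g : SL F), ∀ a ∈ T, (g : Matrix (Fin 2) (Fin 2) F) *ᵥ a ∈ T) (h10 : ![1, 0] ∉ T) :
    T = ⊥ := by
  rw [eq_bot_iff]
  intro a ha
  rw [AddSubgroup.mem_bot]
  by_contra hne
  apply h10
  have key : ∀ b ∈ T, b 1 ≠ 0 → ![1, 0] ∈ T := by
    intro b hb hb1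
    have h1 := T.sub_mem (hT (SL2.up (b 1)⁻¹) b hb) hb
    rw [up_mulVec] at h1
    have : ![b 0 + (b 1)⁻¹ * b 1, b 1] - b = ![1, 0] := by
      funext i
      fin_cases i
      · simp [inv_mul_cancel₀ hb1]
      · simp
    rwa [this] at h1
  by_cases h1 : a 1 = 0
  · have h0 : a 0 ≠ 0 := by
      intro h0
      apply hne
      funext i
      fin_cases i
      · exact h0
      · exact h1
    have h2 := hT (SL2.lo 1) a ha
    rw [lo_mulVec] at h2
    refine key _ h2 ?_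
    simp [h1, h0]
  · exact key a ha h1

/-- the property of being a natural submodule -/
def IsNat (N : AddSubgroup V) : Prop :=
  (∀ (g : SL F), ∀ v ∈ N, g • v ∈ N) ∧
    ∃ ψ : N ≃+ (Fin 2 → F), ∀ (g : SL F) (v w : N), (w : V) = g • (v : V) →
      ψ w = (g : Matrix (Fin 2) (Fin 2) F) *ᵥ ψ v

/-- sums of independent families of natural submodules -/
def GoodSum (F : Type*) [Field F] {V : Type*} [AddCommGroup V] [DistribMulAction (SL F) V]
    (S : AddSubgroup V) : Prop :=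
  ∃ (k : ℕ) (N : Fin k → AddSubgroup V), (∀ i, IsNat (F := F) (N i)) ∧ iSupIndep N ∧ ⨆ i, N i = S

theorem goodSum_step (h : Nice F V) {S : AddSubgroup V} (hS : GoodSum F S) (hne : S ≠ ⊤) :
    ∃ S', S < S' ∧ GoodSum F S' := by
  obtain ⟨k, N, hN, hind, rfl⟩ := hS
  have hinv : ∀ (g : SL F), ∀ v ∈ ⨆ i, N i, g • v ∈ ⨆ i, N i := by
    intro g v hv
    induction hv using AddSubgroup.iSup_induction' with
    | hp i x hx => exact AddSubgroup.mem_iSup_of_mem i ((hN i).1 g x hx)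
    | h1 => rw [smul_zero]; exact AddSubgroup.zero_mem _
    | hadd x y _ _ hx hy => rw [smul_add]; exact AddSubgroup.add_mem _ hx hy
  obtain ⟨w, hw, hwS⟩ : ∃ w ∈ fixUp F V, w ∉ ⨆ i, N i := by
    by_contra hcon
    push Not at hcon
    apply hne
    rw [eq_top_iff]
    intro v _
    obtain ⟨a, ha, b, hb, rfl⟩ := h.dec v
    refine AddSubgroup.add_mem _ (hcon a ha) ?_
    have h1 := hcon _ (ww_smul_fixLo (one_ne_zero (α := F)) hb)
    have h2 := hinv (ww (1 : F))⁻¹ _ h1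
    rwa [inv_smul_smul] at h2
  have hw0 : w ≠ 0 := by
    rintro rfl
    exact hwS (AddSubgroup.zero_mem _)
  obtain ⟨Ψ, hinj, hall, h10⟩ := exists_embedding h hw hw0
  have hdisj : Disjoint Ψ.range (⨆ i, N i) := by
    rw [disjoint_iff, eq_bot_iff]
    rintro _ ⟨⟨a, rfl⟩, ha⟩
    have hT := std_irr ((⨆ i, N i).comap Ψ) (by
      intro g a ha
      rw [AddSubgroup.mem_comap] at ha ⊢
      rw [← hall]
      exact hinv g _ ha) (by
      rw [AddSubgroup.mem_comap, h10]; exact hwS)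
    have : a ∈ (⨆ i, N i).comap Ψ := ha
    rw [hT, AddSubgroup.mem_bot] at this
    rw [this, map_zero]
    exact AddSubgroup.zero_mem _
  have hnat : IsNat (F := F) Ψ.range := by
    refine ⟨?_, ?_⟩
    · rintro g _ ⟨a, rfl⟩
      exact ⟨_, (hall g a).symm⟩
    · let E : (Fin 2 → F) ≃+ Ψ.range := AddMonoidHom.ofInjective hinj
      have hE : ∀ a, ((E a : Ψ.range) : V) = Ψ a := fun _ => rfl
      refine ⟨E.symm, ?_⟩
      intro g v w hvw
      obtain ⟨a, rfl⟩ := E.surjective v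
      obtain ⟨b, rfl⟩ := E.surjective w
      rw [hE, hE, hall] at hvw
      rw [AddEquiv.symm_apply_apply, AddEquiv.symm_apply_apply]
      exact hinj hvw
  have hsup : (⨆ i, (Fin.cons Ψ.range N : Fin (k + 1) → AddSubgroup V) i) = Ψ.range ⊔ ⨆ i, N i := by
    apply le_antisymm
    · refine iSup_le fun i => ?_
      refine Fin.cases ?_ (fun j => ?_) i
      · exact le_sup_left
      · exact le_trans (le_iSup N j) le_sup_right
    · refine sup_le ?_ (iSup_le fun j => ?_)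
      · exact le_iSup (Fin.cons Ψ.range N : Fin (k + 1) → AddSubgroup V) 0
      · exact le_iSup (Fin.cons Ψ.range N : Fin (k + 1) → AddSubgroup V) j.succ
  refine ⟨Ψ.range ⊔ ⨆ i, N i, ?_, k + 1, Fin.cons Ψ.range N, ?_, ?_, hsup⟩
  · refine lt_of_le_of_ne le_sup_right ?_
    intro heq
    apply hwS
    rw [heq]
    exact AddSubgroup.mem_sup_left ⟨_, h10⟩
  · intro i
    refine Fin.cases ?_ (fun j => ?_) i
    · exact hnat
    · exact hN j
  · rw [iSupIndep_iff_supIndep_univ, Fin.univ_succ, Finset.cons_eq_insert]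
    refine Finset.SupIndep.insert ?_ ?_
    · rw [Finset.supIndep_map]
      exact (iSupIndep_iff_supIndep_univ.1 hind)
    · rw [Finset.sup_map]
      rw [Finset.sup_univ_eq_iSup]
      exact hdisj

theorem nice_decomp [Finite V] (h : Nice F V) :
    ∃ (k : ℕ) (N : Fin k → AddSubgroup V),
      (∀ i, (∀ (g : SL F), ∀ v ∈ N i, g • v ∈ N i) ∧
        ∃ ψ : N i ≃+ (Fin 2 → F), ∀ (g : SL F) (v w : N i), (w : V) = g • (v : V) →
          ψ w = (g : Matrix (Fin 2) (Fin 2) F) *ᵥ ψ v) ∧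
      iSupIndep N ∧ ⨆ i, N i = ⊤ := by
  have h0 : GoodSum F (⊥ : AddSubgroup V) :=
    ⟨0, Fin.elim0, fun i => i.elim0, iSupIndep_subsingleton _, iSup_of_empty _⟩
  have key : ∀ S : AddSubgroup V, GoodSum F S → GoodSum F (⊤ : AddSubgroup V) := by
    intro S
    induction S using WellFoundedGT.induction with
    | ind S ih =>
      intro hS
      by_cases hne : S = ⊤
      · rw [← hne]; exact hS
      · obtain ⟨S', hlt, hS'⟩ := goodSum_step h hS hne
        exact ih S' hlt hS'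
  exact key ⊥ h0

end Cfsg.Agent.Lib.Helper85.NatSL2
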