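import Cfsg.Agent.Lib.Helper85.Hig.Grp

set_option autoImplicit false

namespace Cfsg.Agent.Lib.Helper85.NatSL2

open Matrix
open scoped commutatorElement

universe u v

theorem iSupIndep_map_subtype {G : Type*} [Group G] (Q : Subgroup G) {ι : Type*} (S : ι → Subgroup Q)
    (h : iSupIndep S) : iSupIndep (fun i => (S i).map Q.subtype) := by
  rw [iSupIndep_def] at h ⊢
  intro i
  have e : (⨆ (j) (_ : j ≠ i), (S j).map Q.subtype) = (⨆ (j) (_ : j ≠ i), S j).map Q.subtype := by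
    rw [Subgroup.map_iSup]
    congr 1
    funext j
    rw [Subgroup.map_iSup]
  rw [e, disjoint_iff, ← Subgroup.map_inf _ _ _ Q.subtype_injective, disjoint_iff.1 (h i),
    Subgroup.map_bot]

section

variable {G : Type u} [Group G] [Finite G] (Q : Subgroup G) [Q.Normal] (hQ : IsPGroup 2 Q)
  {K : Type v} [Field K] [Finite K] [CharP K 2] (hK : ∃ s : K, s ≠ 0 ∧ s ≠ 1)
  (π : G →* SL K) (hπ : Function.Surjective π) (hker : π.ker = Q)
  (x : G) (hx : π x = SL2.up 1 * SL2.lo 1) (hfpf : ∀ q ∈ Q, x * q * x⁻¹ = q → q = 1)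

include hQ hK hπ hker hx hfpf

theorem higman_main : Cfsg.IsElementaryAbelian 2 Q ∧
      ∃ (k : ℕ) (V : Fin k → Subgroup G), (∀ i, V i ≤ Q ∧ (V i).Normal ∧
        Cfsg.ActsAsSL2OnSection K ⊤ ⊤ (V i) ⊥) ∧ iSupIndep V ∧ ⨆ i, V i = Q := by
  have hab := abelian_of_fpf Q hQ hK π hπ hker x hx hfpf
  have hcomm : ⁅Q, Q⁆ ≤ ⊥ := by
    rw [Subgroup.commutator_le]
    intro a ha b hb
    rw [Subgroup.mem_bot, commutatorElement_eq_one_iff_mul_comm]
    exact hab a ha b hb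
  obtain ⟨M, i1, i2, φ, hs, hadd, hzero, heq, hn, hfin⟩ :=
    section_nice Q hQ hK π hπ hker x hx hfpf Q ⊥ bot_le le_rfl hcomm hcomm
  have h1 : φ 1 = 0 := (hzero 1).2 (Subgroup.one_mem _)
  have hinj : Function.Injective φ := by
    intro a b h
    have h0 : φ (a * b⁻¹) = 0 := by
      have : φ (a * b⁻¹) + φ b = φ a := by rw [← hadd]; simp
      rw [h] at this
      simpa using this
    have h2 := (hzero _).1 h0
    rw [Subgroup.mem_bot] at h2
    have h3 : a * b⁻¹ = 1 := Subtype.ext h2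
    exact mul_inv_eq_one.1 h3
  refine ⟨⟨⟨⟨fun a b => Subtype.ext (hab a a.2 b b.2)⟩⟩, ?_⟩, ?_⟩
  · intro a ha
    have h0 : φ (⟨a, ha⟩ * ⟨a, ha⟩) = 0 := by rw [hadd]; exact hn.two _
    have h2 := (hzero _).1 h0
    rw [Subgroup.mem_bot] at h2
    rw [sq]; exact h2
  obtain ⟨k, N, hN, hind, htop⟩ := nice_decomp hn
  let e : Q ≃* Multiplicative M :=
    MulEquiv.ofBijective
      ({ toFun := fun a => Multiplicative.ofAdd (φ a)
         map_one' := by rw [h1]; rfl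
         map_mul' := fun a b => by rw [hadd]; rfl } : Q →* Multiplicative M)
      ⟨fun a b h => hinj h, fun m => hs m.toAdd⟩
  have he : ∀ a, e a = Multiplicative.ofAdd (φ a) := fun _ => rfl
  let o : AddSubgroup M ≃o Subgroup Q := AddSubgroup.toSubgroup.trans e.symm.mapSubgroup
  have ho : ∀ (A : AddSubgroup M) (a : Q), a ∈ o A ↔ φ a ∈ A := by
    intro A a
    show a ∈ (AddSubgroup.toSubgroup A).map e.symm.toMonoidHom ↔ _
    rw [Subgroup.mem_map_equiv]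
    exact Iff.rfl
  refine ⟨k, fun i => (o (N i)).map Q.subtype, ?_, ?_, ?_⟩
  · intro i
    have hmem : ∀ g : G, g ∈ (o (N i)).map Q.subtype ↔ ∃ h : g ∈ Q, φ ⟨g, h⟩ ∈ N i := by
      intro g
      rw [Subgroup.mem_map]
      constructor
      · rintro ⟨a, ha, rfl⟩
        exact ⟨a.2, (ho _ _).1 ha⟩
      · rintro ⟨h, hg⟩
        exact ⟨⟨g, h⟩, (ho _ _).2 hg, rfl⟩
    have hconj : ∀ (g v : G), v ∈ (o (N i)).map Q.subtype → g * v * g⁻¹ ∈ (o (N i)).map Q.subtype := by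
      intro g v hv
      obtain ⟨h, hv⟩ := (hmem v).1 hv
      refine (hmem _).2 ⟨‹Q.Normal›.conj_mem _ h g, ?_⟩
      rw [← heq g ⟨v, h⟩ ⟨g * v * g⁻¹, ‹Q.Normal›.conj_mem _ h g⟩ rfl]
      exact (hN i).1 _ _ hv
    have hnorm : ((o (N i)).map Q.subtype).Normal := ⟨fun v hv g => hconj g v hv⟩
    refine ⟨Subgroup.map_subtype_le _, hnorm, ?_⟩
    obtain ⟨ψ, hψ⟩ := (hN i).2
    have hQm : ∀ v : ((o (N i)).map Q.subtype : Subgroup G), (v : G) ∈ Q := fun v =>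
      ((hmem v).1 v.2).1
    have hNm : ∀ v : ((o (N i)).map Q.subtype : Subgroup G), φ ⟨v, hQm v⟩ ∈ N i := fun v =>
      ((hmem v).1 v.2).2
    refine ⟨by rw [Subgroup.normalizer_eq_top], bot_le, π.comp (⊤ : Subgroup G).subtype,
      { toFun := fun v => Multiplicative.ofAdd (ψ ⟨φ ⟨v, hQm v⟩, hNm v⟩)
        map_one' := by
          have : (⟨φ ⟨((1 : ((o (N i)).map Q.subtype : Subgroup G)) : G), hQm 1⟩, hNm 1⟩ : N i) = 0 :=
            Subtype.ext h1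
          rw [this, map_zero]; rfl
        map_mul' := fun a b => by
          have : (⟨φ ⟨((a * b : ((o (N i)).map Q.subtype : Subgroup G)) : G), hQm (a * b)⟩, hNm (a * b)⟩ : N i)
              = ⟨φ ⟨a, hQm a⟩, hNm a⟩ + ⟨φ ⟨b, hQm b⟩, hNm b⟩ :=
            Subtype.ext (hadd ⟨a, hQm a⟩ ⟨b, hQm b⟩)
          rw [this, map_add]; rfl }, ?_, ?_, ?_, ?_⟩
    · rw [MonoidHom.range_eq_top]
      intro s
      obtain ⟨g, rfl⟩ := hπ s
      exact ⟨⟨g, Subgroup.mem_top g⟩, rfl⟩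
    · intro y
      obtain ⟨m, hm⟩ := ψ.surjective y.toAdd
      obtain ⟨a, ha⟩ := hs m.1
      have hav : (a : G) ∈ (o (N i)).map Q.subtype := (hmem _).2 ⟨a.2, by
        show φ a ∈ N i
        rw [ha]; exact m.2⟩
      refine ⟨⟨a, hav⟩, ?_⟩
      show Multiplicative.ofAdd (ψ ⟨φ ⟨(a : G), _⟩, _⟩) = y
      have : (⟨φ ⟨(a : G), hQm ⟨a, hav⟩⟩, hNm ⟨a, hav⟩⟩ : N i) = m := Subtype.ext ha
      rw [this, hm]; rfl
    · intro v
      show Multiplicative.ofAdd (ψ ⟨φ ⟨(v : G), _⟩, _⟩) = 1 ↔ _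
      constructor
      · intro h
        have h2 : ψ ⟨φ ⟨(v : G), hQm v⟩, hNm v⟩ = 0 := h
        have h3 : (⟨φ ⟨(v : G), hQm v⟩, hNm v⟩ : N i) = 0 := by
          apply ψ.injective; rw [h2, map_zero]
        have h4 : φ ⟨(v : G), hQm v⟩ = 0 := congrArg Subtype.val h3
        exact (hzero _).1 h4
      · intro h
        have h4 : φ ⟨(v : G), hQm v⟩ = 0 := (hzero _).2 h
        have h3 : (⟨φ ⟨(v : G), hQm v⟩, hNm v⟩ : N i) = 0 := Subtype.ext h4
        rw [h3, map_zero]; rfl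
    · intro g v
      refine ⟨⟨(g : G) * v * (g : G)⁻¹, hconj g v v.2⟩, rfl, ?_⟩
      show ψ ⟨φ ⟨(g : G) * v * (g : G)⁻¹, _⟩, _⟩ = _
      exact hψ (π g) ⟨φ ⟨v, hQm v⟩, hNm v⟩ _ (heq g ⟨v, hQm v⟩ ⟨(g : G) * v * (g : G)⁻¹, _⟩ rfl).symm
  · exact iSupIndep_map_subtype Q _ (hind.map_orderIso o)
  · rw [← Subgroup.map_iSup, ← o.map_iSup, htop, o.map_top, ← MonoidHom.range_eq_map,
      Subgroup.range_subtype]

end

end Cfsg.Agent.Lib.Helper85.NatSL2
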