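import Cfsg.Agent.Lib.Helper85.Hig.HB
import Cfsg.Agent.Lib.Helper85.Hig.DEC
import Cfsg.Agent.Lib.Helper91.HigFPF
import Cfsg.Agent.Lib.Helper91.HigCID
import Cfsg.Agent.Lib.Helper91.HigORD
import Cfsg.Agent.Lib.Helper91.HigCONJ3
import Cfsg.Agent.Lib.Helper91.HigSEC
import Cfsg.Agent.Lib.Helper91.HigPAIR
import Cfsg.Agent.Lib.Helper54.Comm

set_option autoImplicit false

namespace Cfsg.Agent.Lib.Helper85.NatSL2

open Matrix
open scoped commutatorElement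

universe u v

section

variable {G : Type u} [Group G] [Finite G] (Q : Subgroup G) [Q.Normal] (hQ : IsPGroup 2 Q)
  {K : Type v} [Field K] [Finite K] [CharP K 2] (hK : ∃ s : K, s ≠ 0 ∧ s ≠ 1)
  (π : G →* SL K) (hπ : Function.Surjective π) (hker : π.ker = Q)
  (x : G) (hx : π x = SL2.up 1 * SL2.lo 1) (hfpf : ∀ q ∈ Q, x * q * x⁻¹ = q → q = 1)

include hQ hK hπ hker hx hfpf

theorem section_nice (X Y : Subgroup G) [X.Normal] [Y.Normal] (hYX : Y ≤ X) (hXle : X ≤ Q)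
    (hXX : ⁅X, X⁆ ≤ Y) (hXQ : ⁅X, Q⁆ ≤ Y) :
    ∃ (M : Type u) (_ : AddCommGroup M) (_ : DistribMulAction (SL K) M) (φ : X → M),
      Function.Surjective φ ∧ (∀ a b, φ (a * b) = φ a + φ b) ∧ (∀ a, φ a = 0 ↔ (a : G) ∈ Y) ∧
      (∀ (g : G) (a b : X), (b : G) = g * a * g⁻¹ → π g • φ a = φ b) ∧ Nice K M ∧ Finite M := by
  obtain ⟨M, i1, i2, φ, hs, hadd, hzero, heq⟩ :=
    exists_section_module π hπ X Y hYX hXX (by rw [hker]; exact hXQ)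
  have hfin : Finite M := Finite.of_surjective φ hs
  have h1 : φ 1 = 0 := (hzero 1).2 Y.one_mem
  have hpow : ∀ (a : X) (n : ℕ), φ (a ^ n) = n • φ a := by
    intro a n
    induction n with
    | zero => simp [h1]
    | succ k ih => rw [pow_succ, hadd, ih, succ_nsmul]
  have h2 : TwoGrp M := by
    intro m
    obtain ⟨a, rfl⟩ := hs m
    obtain ⟨k, hk⟩ := hQ ⟨a.1, hXle a.2⟩
    refine ⟨k, ?_⟩
    rw [← hpow]
    have : a ^ 2 ^ k = 1 := by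
      apply Subtype.ext
      have := congrArg (fun z : Q => (z : G)) hk
      simpa using this
    rw [this, h1]
  have hfix : ∀ m : M, (SL2.up (1 : K) * SL2.lo 1) • m = m → m = 0 := by
    intro m hm
    obtain ⟨a, rfl⟩ := hs m
    let b : X := ⟨x * a * x⁻¹, ‹X.Normal›.conj_mem _ a.2 x⟩
    have hb := heq x a b rfl
    rw [hx, hm] at hb
    have h3 : φ (b * a⁻¹) = 0 := by
      have : φ (b * a⁻¹) + φ a = φ b := by rw [← hadd]; simp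
      rw [← hb] at this
      simpa using this
    rw [hzero] at h3 ⊢
    exact fpf_section X Y hYX x (fun q hq => hfpf q (hXle hq)) a a.2 h3
  exact ⟨M, i1, i2, φ, hs, hadd, hzero, heq, nice_of_ord3 hK h2 (ord3_of_fix hfix), hfin⟩

theorem abelian_of_fpf : ∀ a ∈ Q, ∀ b ∈ Q, a * b = b * a := by
  have hγ2 : ⁅Q, Q⁆ ≤ Q := Subgroup.commutator_le_left Q Q
  obtain ⟨M₁, i1, i2, φ₁, hs₁, hadd₁, hzero₁, heq₁, hn₁, -⟩ :=
    section_nice Q hQ hK π hπ hker x hx hfpf Q ⁅Q, Q⁆ hγ2 le_rfl le_rfl le_rfl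
  obtain ⟨M₃, j1, j2, φ₃, hs₃, hadd₃, hzero₃, heq₃, hn₃, -⟩ :=
    section_nice Q hQ hK π hπ hker x hx hfpf ⁅Q, Q⁆ ⁅⁅Q, Q⁆, Q⁆ (Subgroup.commutator_le_left _ _) hγ2
      (Subgroup.commutator_mono le_rfl hγ2) le_rfl
  let c : Q → Q → (⁅Q, Q⁆ : Subgroup G) := fun a b =>
    ⟨⁅(a : G), (b : G)⁆, Subgroup.commutator_mem_commutator a.2 b.2⟩
  have hcongr₃ : ∀ u w : (⁅Q, Q⁆ : Subgroup G), (u : G) * (w : G)⁻¹ ∈ ⁅⁅Q, Q⁆, Q⁆ → φ₃ u = φ₃ w := by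
    intro u w h
    have h0 : φ₃ (u * w⁻¹) = 0 := (hzero₃ _).2 h
    have : φ₃ (u * w⁻¹) + φ₃ w = φ₃ u := by rw [← hadd₃]; simp
    rw [← this, h0, zero_add]
  have hl : ∀ a b d : Q, φ₃ (c (a * b) d) = φ₃ (c a d) + φ₃ (c b d) := by
    intro a b d
    rw [← hadd₃]
    exact hcongr₃ _ _ (comm_mul_left_mod Q a.2 b.2 d.2)
  have hr : ∀ a b d : Q, φ₃ (c a (b * d)) = φ₃ (c a b) + φ₃ (c a d) := by
    intro a b d
    rw [← hadd₃]
    exact hcongr₃ _ _ (comm_mul_right_mod Q a.2 b.2 d.2)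
  have hzl : ∀ a d : Q, (a : G) ∈ ⁅Q, Q⁆ → φ₃ (c a d) = 0 := by
    intro a d ha
    exact (hzero₃ _).2 (Subgroup.commutator_mem_commutator ha d.2)
  have hzr : ∀ a d : Q, (d : G) ∈ ⁅Q, Q⁆ → φ₃ (c a d) = 0 := by
    intro a d hd
    refine (hzero₃ _).2 ?_
    rw [Subgroup.commutator_comm]
    exact Subgroup.commutator_mem_commutator a.2 hd
  have hwl : ∀ a a' d : Q, φ₁ a = φ₁ a' → φ₃ (c a d) = φ₃ (c a' d) := by
    intro a a' d h
    have h0 : φ₁ (a * a'⁻¹) = 0 := by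
      have : φ₁ (a * a'⁻¹) + φ₁ a' = φ₁ a := by rw [← hadd₁]; simp
      rw [h] at this
      simpa using this
    have : a = (a * a'⁻¹) * a' := by simp
    rw [this, hl, hzl _ _ ((hzero₁ _).1 h0), zero_add]
  have hwr : ∀ a d d' : Q, φ₁ d = φ₁ d' → φ₃ (c a d) = φ₃ (c a d') := by
    intro a d d' h
    have h0 : φ₁ (d * d'⁻¹) = 0 := by
      have : φ₁ (d * d'⁻¹) + φ₁ d' = φ₁ d := by rw [← hadd₁]; simp
      rw [h] at this
      simpa using this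
    have : d = (d * d'⁻¹) * d' := by simp
    rw [this, hr, hzr _ _ ((hzero₁ _).1 h0), zero_add]
  let σ : M₁ → Q := Function.surjInv hs₁
  have hσ : ∀ m, φ₁ (σ m) = m := Function.surjInv_eq hs₁
  let f : M₁ → M₁ → M₃ := fun m m' => φ₃ (c (σ m) (σ m'))
  have hf : ∀ a b : Q, f (φ₁ a) (φ₁ b) = φ₃ (c a b) := by
    intro a b
    show φ₃ (c (σ (φ₁ a)) (σ (φ₁ b))) = _
    rw [hwl _ a _ (hσ _), hwr _ _ b (hσ _)]
  have hzero : ∀ m m', f m m' = 0 := by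
    refine pairing_zero hK hn₁ hn₃ f ?_ ?_ ?_
    · intro m m' d
      obtain ⟨a, rfl⟩ := hs₁ m
      obtain ⟨b, rfl⟩ := hs₁ m'
      obtain ⟨d, rfl⟩ := hs₁ d
      rw [← hadd₁, hf, hf, hf, hl]
    · intro m m' d
      obtain ⟨a, rfl⟩ := hs₁ m
      obtain ⟨b, rfl⟩ := hs₁ m'
      obtain ⟨d, rfl⟩ := hs₁ d
      rw [← hadd₁, hf, hf, hf, hr]
    · intro g m m'
      obtain ⟨a, rfl⟩ := hs₁ m
      obtain ⟨b, rfl⟩ := hs₁ m'
      obtain ⟨g, rfl⟩ := hπ g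
      let a' : Q := ⟨g * a * g⁻¹, ‹Q.Normal›.conj_mem _ a.2 g⟩
      let b' : Q := ⟨g * b * g⁻¹, ‹Q.Normal›.conj_mem _ b.2 g⟩
      rw [heq₁ g a a' rfl, heq₁ g b b' rfl, hf, hf]
      refine (heq₃ g (c a b) (c a' b') ?_).symm
      show ⁅g * (a : G) * g⁻¹, g * (b : G) * g⁻¹⁆ = g * ⁅(a : G), (b : G)⁆ * g⁻¹
      simp only [commutatorElement_def]
      group
  have hle : ⁅Q, Q⁆ ≤ ⁅⁅Q, Q⁆, Q⁆ := by
    rw [Subgroup.commutator_le]
    intro a ha b hb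
    have := hf ⟨a, ha⟩ ⟨b, hb⟩
    rw [hzero] at this
    exact (hzero₃ _).1 this.symm
  have hbot := Cfsg.Agent.Lib.Helper54.eq_bot_of_commutator_eq_self Q ⁅Q, Q⁆ hQ hγ2 hle
  intro a ha b hb
  have : ⁅a, b⁆ ∈ ⁅Q, Q⁆ := Subgroup.commutator_mem_commutator ha hb
  rw [hbot, Subgroup.mem_bot, commutatorElement_eq_one_iff_mul_comm] at this
  exact this

end

end Cfsg.Agent.Lib.Helper85.NatSL2
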