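import Cfsg.Agent.Lib.Helper85.Hig.Basic

set_option autoImplicit false

namespace Cfsg.Agent.Lib.Helper85.NatSL2

open Matrix

variable {F : Type*} [Field F] [CharP F 2] {V : Type*} [AddCommGroup V] [DistribMulAction (SL F) V]

theorem ww_two (s : F) : ww s = SL2.up s * SL2.lo s⁻¹ * SL2.up s := by
  rw [ww_def, CharTwo.neg_eq]

theorem ww_two' {s : F} (hs : s ≠ 0) : ww s = SL2.lo s⁻¹ * SL2.up s * SL2.lo s⁻¹ := by
  rw [ww_eq' hs, CharTwo.neg_eq]

theorem up_up (s : F) (v : V) : SL2.up s • SL2.up s • v = v := by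
  rw [← mul_smul, SL2.up_add, CharTwo.add_self_eq_zero, SL2.up_zero, one_smul]

theorem lo_lo (s : F) (v : V) : SL2.lo s • SL2.lo s • v = v := by
  rw [← mul_smul, SL2.lo_add, CharTwo.add_self_eq_zero, SL2.lo_zero, one_smul]

theorem ww_ww (s : F) (v : V) : ww s • ww s • v = v := by
  have h : ww s = (ww s)⁻¹ := by rw [← ww_neg, CharTwo.neg_eq]
  calc ww s • ww s • v = (ww s)⁻¹ • ww s • v := by rw [← h]
    _ = v := inv_smul_smul _ _

theorem up_fixLo (hO : Ord3 F V) {s : F} (hs : s ≠ 0) {v : V} (hv : v ∈ fixLo F V) :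
    SL2.up s • v = -v - ww s • v := by
  have h := hO s hs v
  rw [hv s⁻¹] at h
  have h1 : SL2.lo s⁻¹ • SL2.up s • v = -v - SL2.up s • v := by
    rw [eq_sub_iff_add_eq, eq_neg_iff_add_eq_zero, ← h]; abel
  have h2 : ww s • v = -(SL2.up s • v) - v := by
    rw [ww_two, mul_smul, mul_smul, h1, smul_sub, smul_neg, up_up]
  rw [h2]; abel

theorem lo_fixUp (hO : Ord3 F V) {s : F} (hs : s ≠ 0) {v : V} (hv : v ∈ fixUp F V) :
    SL2.lo s⁻¹ • v = -v - ww s • v := by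
  have h := hO s hs v
  rw [hv s] at h
  have h1 : SL2.up s • SL2.lo s⁻¹ • v = -v - SL2.lo s⁻¹ • v := by
    rw [eq_sub_iff_add_eq, eq_neg_iff_add_eq_zero, ← h]; abel
  have h2 : ww s • v = -(SL2.lo s⁻¹ • v) - v := by
    rw [ww_two' hs, mul_smul, mul_smul, h1, smul_sub, smul_neg, lo_lo]
  rw [h2]; abel

theorem int_zero (hO : Ord3 F V) (h2 : TwoGrp V) {v : V} (h0 : v ∈ fixUp F V) (h1 : v ∈ fixLo F V) :
    v = 0 := by
  have h := hO 1 one_ne_zero v
  rw [h1, h0, h1] at h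
  obtain ⟨k, hk⟩ := h2 v
  have h3 : 3 • v = 0 := by rw [← h]; abel
  have d1 : addOrderOf v ∣ 3 := addOrderOf_dvd_of_nsmul_eq_zero h3
  have d2 : addOrderOf v ∣ 2 ^ k := addOrderOf_dvd_of_nsmul_eq_zero hk
  have hc : Nat.Coprime 3 (2 ^ k) := Nat.Coprime.pow_right k (by norm_num)
  have := Nat.eq_one_of_dvd_coprimes hc d1 d2
  exact AddMonoid.addOrderOf_eq_one_iff.1 this

theorem ww_rel (hO : Ord3 F V) {s t : F} (hs : s ≠ 0) (ht : t ≠ 0) (hst : s + t ≠ 0) {v : V}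
    (hv : v ∈ fixLo F V) : v + v = -(ww s • v) + ww t • v - ww (s + t) • v := by
  have e : SL2.up s • SL2.up t • v = SL2.up (s + t) • v := by rw [← mul_smul, SL2.up_add]
  rw [up_fixLo hO ht hv, up_fixLo hO hst hv, smul_sub, smul_neg, up_fixLo hO hs hv,
    ww_smul_fixLo ht hv s] at e
  have : v + v = (-(-v - ww s • v) - ww t • v) - (-v - ww (s + t) • v) + (-(ww s • v) + ww t • v - ww (s + t) • v) := by
    abel
  rw [this, e]; abel

theorem two_fixLo (hO : Ord3 F V) (h2 : TwoGrp V) (hF : ∃ s : F, s ≠ 0 ∧ s ≠ 1) {v : V}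
    (hv : v ∈ fixLo F V) : v + v = 0 := by
  obtain ⟨s, hs, hs1⟩ := hF
  have hst : s + 1 ≠ 0 := by
    intro h
    apply hs1
    have := CharTwo.add_eq_zero.1 h
    exact this
  refine int_zero hO h2 ?_ ((fixLo F V).add_mem hv hv)
  rw [ww_rel hO hs one_ne_zero hst hv]
  exact (fixUp F V).sub_mem ((fixUp F V).add_mem ((fixUp F V).neg_mem (ww_smul_fixLo hs hv))
    (ww_smul_fixLo one_ne_zero hv)) (ww_smul_fixLo hst hv)

theorem two_fixUp (hO : Ord3 F V) (h2 : TwoGrp V) (hF : ∃ s : F, s ≠ 0 ∧ s ≠ 1) {v : V}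
    (hv : v ∈ fixUp F V) : v + v = 0 := by
  have h := two_fixLo hO h2 hF (ww_smul_fixUp (one_ne_zero (α := F)) hv)
  have h3 := congrArg (fun u => ww (1 : F) • u) h
  simpa [smul_add, ww_ww] using h3

theorem hLo_of (hO : Ord3 F V) (h2 : TwoGrp V) (hF : ∃ s : F, s ≠ 0 ∧ s ≠ 1) {t : F} (ht : t ≠ 0)
    {v : V} (hv : v ∈ fixLo F V) : ww t • v = SL2.up t • v - v := by
  rw [up_fixLo hO ht hv]
  have h1 := two_fixLo hO h2 hF hv
  have h3 := two_fixUp hO h2 hF (ww_smul_fixLo ht hv)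
  have : -v - ww t • v - v = ww t • v - (v + v) - (ww t • v + ww t • v) := by abel
  rw [this, h1, h3]; simp

theorem hUp_of (hO : Ord3 F V) (h2 : TwoGrp V) (hF : ∃ s : F, s ≠ 0 ∧ s ≠ 1) {t : F} (ht : t ≠ 0)
    {v : V} (hv : v ∈ fixUp F V) : ww t • v = SL2.lo (-t⁻¹) • v - v := by
  rw [CharTwo.neg_eq, lo_fixUp hO ht hv]
  have h1 := two_fixUp hO h2 hF hv
  have h3 := two_fixLo hO h2 hF (ww_smul_fixUp ht hv)
  have : -v - ww t • v - v = ww t • v - (v + v) - (ww t • v + ww t • v) := by abel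
  rw [this, h1, h3]; simp

/-- `fixUp ⊔ fixLo` is invariant -/
theorem sup_invariant (hO : Ord3 F V) :
    ∀ (g : SL F), ∀ v ∈ fixUp F V ⊔ fixLo F V, g • v ∈ fixUp F V ⊔ fixLo F V := by
  apply smul_mem_of_gens
  · intro x v hv
    obtain ⟨a, ha, b, hb, rfl⟩ := AddSubgroup.mem_sup.1 hv
    by_cases hx : x = 0
    · rw [hx, SL2.up_zero, one_smul]; exact hv
    rw [smul_add, ha x, up_fixLo hO hx hb]
    have : a + (-b - ww x • b) = (a - ww x • b) + (-b) := by abel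
    rw [this]
    exact AddSubgroup.mem_sup.2 ⟨_, (fixUp F V).sub_mem ha (ww_smul_fixLo hx hb), _,
      (fixLo F V).neg_mem hb, rfl⟩
  · intro y v hv
    obtain ⟨a, ha, b, hb, rfl⟩ := AddSubgroup.mem_sup.1 hv
    by_cases hy : y = 0
    · rw [hy, SL2.lo_zero, one_smul]; exact hv
    have e : y = (y⁻¹)⁻¹ := (inv_inv y).symm
    rw [smul_add, hb y, e, lo_fixUp hO (inv_ne_zero hy) ha]
    have : -a - ww y⁻¹ • a + b = (-a) + (b - ww y⁻¹ • a) := by abel
    rw [this]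
    exact AddSubgroup.mem_sup.2 ⟨_, (fixUp F V).neg_mem ha, _,
      (fixLo F V).sub_mem hb (ww_smul_fixUp (inv_ne_zero hy) ha), rfl⟩

end Cfsg.Agent.Lib.Helper85.NatSL2
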