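import Mathlib

set_option autoImplicit false

namespace Cfsg.Agent.Lib.Helper85.NatSL2

theorem exists_not_mem_sub_mem' {A : Type*} [Group A] [Finite A] {p : ℕ} [Fact p.Prime]
    (hA : IsPGroup p A) {M : Type*} [AddCommGroup M] [Finite M] (hM : ∀ v : M, ∃ k : ℕ, p ^ k • v = 0)
    [DistribMulAction A M] (W : AddSubgroup M) (hW : ∀ (a : A), ∀ w ∈ W, a • w ∈ W) (hne : W ≠ ⊤) :
    ∃ v, v ∉ W ∧ ∀ a : A, a • v - v ∈ W := by
  let sm : A → M ⧸ W → M ⧸ W := fun a => Quotient.map' (fun v => a • v) (by
    intro x y h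
    rw [QuotientAddGroup.leftRel_apply] at h ⊢
    have := hW a _ h
    rwa [smul_add, smul_neg] at this)
  have hsm : ∀ (a : A) (v : M), sm a (v : M ⧸ W) = ((a • v : M) : M ⧸ W) := fun _ _ => rfl
  let act : MulAction A (M ⧸ W) :=
    { smul := sm
      one_smul := by
        intro x
        induction x using QuotientAddGroup.induction_on with
        | H v =>
          show sm 1 (v : M ⧸ W) = _
          rw [hsm, one_smul]
      mul_smul := by
        intro a b x
        induction x using QuotientAddGroup.induction_on with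
        | H v =>
          show sm (a * b) (v : M ⧸ W) = sm a (sm b (v : M ⧸ W))
          rw [hsm, hsm, hsm, mul_smul] }
  have hsm' : ∀ (a : A) (v : M), a • (v : M ⧸ W) = ((a • v : M) : M ⧸ W) := fun _ _ => rfl
  have hP : IsPGroup p (Multiplicative (M ⧸ W)) := by
    intro x
    induction x using Multiplicative.rec with
    | _ x =>
    induction x using QuotientAddGroup.induction_on with
    | H v =>
      obtain ⟨k, hk⟩ := hM v
      refine ⟨k, ?_⟩
      rw [← ofAdd_nsmul, ← QuotientAddGroup.mk_nsmul, hk]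
      rfl
  obtain ⟨n, hn⟩ := IsPGroup.iff_card.1 hP
  have hn' : Nat.card (M ⧸ W) = p ^ n := hn
  have hn0 : n ≠ 0 := by
    rintro rfl
    rw [pow_zero] at hn'
    exact hne (AddSubgroup.index_eq_one.1 hn')
  have hdvd : p ∣ Nat.card (M ⧸ W) := by rw [hn']; exact dvd_pow_self _ hn0
  have h0 : ((0 : M) : M ⧸ W) ∈ MulAction.fixedPoints A (M ⧸ W) := by
    intro a
    rw [hsm', smul_zero]
  obtain ⟨b, hb, hb0⟩ := hA.exists_fixed_point_of_prime_dvd_card_of_fixed_point (M ⧸ W) hdvd h0
  induction b using QuotientAddGroup.induction_on with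
  | H v =>
    refine ⟨v, ?_, ?_⟩
    · intro hv
      apply hb0
      exact ((QuotientAddGroup.eq_zero_iff v).2 hv).symm
    · intro a
      have := hb a
      rw [hsm', QuotientAddGroup.eq] at this
      have h2 := W.neg_mem this
      have e : -(-(a • v) + v) = a • v - v := by abel
      rwa [e] at h2

end Cfsg.Agent.Lib.Helper85.NatSL2
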