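import Cfsg.Agent.Lib.Helper85.Hig.HA
import Cfsg.Agent.Lib.Helper85.Hig.PFIX2
import Cfsg.Agent.Lib.Helper91.HigFE

set_option autoImplicit false

namespace Cfsg.Agent.Lib.Helper85.NatSL2

open Matrix

variable {F : Type*} [Field F] [CharP F 2] {V : Type*} [AddCommGroup V] [DistribMulAction (SL F) V]

/-- hypotheses of the module theorem, bundled -/
structure Hyp (F : Type*) [Field F] (V : Type*) [AddCommGroup V] [DistribMulAction (SL F) V] :
    Prop where
  hO : Ord3 F V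
  h2 : TwoGrp V
  hF : ∃ s : F, s ≠ 0 ∧ s ≠ 1

theorem Hyp.sc_eq (H : Hyp F V) {t : F} (ht : t ≠ 0) {w : V} (hw : w ∈ fixUp F V) :
    sc t w = hh t • w :=
  sc_eq_hh (fun ht _ hv => hLo_of H.hO H.h2 H.hF ht hv) ht hw

theorem hh_mem {t : F} (ht : t ≠ 0) {w : V} (hw : w ∈ fixUp F V) : hh t • w ∈ fixUp F V := by
  rw [hh_def, mul_smul]
  exact ww_smul_fixLo ht (ww_smul_fixUp neg_one_ne hw)

theorem Hyp.sc_mem (H : Hyp F V) (t : F) {w : V} (hw : w ∈ fixUp F V) : sc t w ∈ fixUp F V := by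
  by_cases ht : t = 0
  · rw [ht, sc_zero_left]; exact (fixUp F V).zero_mem
  · rw [H.sc_eq ht hw]; exact hh_mem ht hw

theorem Hyp.sc_add (H : Hyp F V) (t s : F) {w : V} (hw : w ∈ fixUp F V) :
    sc (t + s) w = sc t w + sc s w := by
  have h := H.sc_mem s hw t
  unfold sc at h ⊢
  rw [← SL2.up_add, mul_smul]
  rw [smul_sub] at h
  have : SL2.up t • SL2.up s • ww (-1 : F) • w
      = SL2.up s • ww (-1 : F) • w - ww (-1 : F) • w + SL2.up t • ww (-1 : F) • w := by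
    rw [← h]; abel
  rw [this]; abel

theorem Hyp.sc_mul (H : Hyp F V) (t s : F) {w : V} (hw : w ∈ fixUp F V) :
    sc (t * s) w = sc t (sc s w) := by
  by_cases ht : t = 0
  · rw [ht, zero_mul, sc_zero_left, sc_zero_left]
  by_cases hs : s = 0
  · rw [hs, mul_zero, sc_zero_left, sc_zero_right]
  rw [H.sc_eq (mul_ne_zero ht hs) hw, H.sc_eq ht (H.sc_mem s hw), H.sc_eq hs hw,
    ← hh_mul ht hs, mul_smul]

/-- the `F`-vector space structure on `fixUp` -/
@[reducible] def Hyp.module (H : Hyp F V) : Module F (fixUp F V) where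
  smul t w := ⟨sc t w.1, H.sc_mem t w.2⟩
  one_smul w := Subtype.ext (by
    show sc (1 : F) w.1 = w.1
    rw [H.sc_eq one_ne_zero w.2, hh_one, one_smul])
  mul_smul t s w := Subtype.ext (H.sc_mul t s w.2)
  smul_zero t := Subtype.ext (sc_zero_right t)
  smul_add t v w := Subtype.ext (sc_add_right t v.1 w.1)
  add_smul t s w := Subtype.ext (H.sc_add t s w.2)
  zero_smul w := Subtype.ext (sc_zero_left w.1)

theorem ww_eq_sc (H : Hyp F V) {s : F} (hs : s ≠ 0) {u : V} (hu : u ∈ fixLo F V) :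
    ww s • u = sc s (ww (1 : F) • u) := by
  rw [H.sc_eq hs (ww_smul_fixLo one_ne_zero hu), hh_def, mul_smul, CharTwo.neg_eq, ww_ww]

theorem neg_eq_fixLo (H : Hyp F V) {u : V} (hu : u ∈ fixLo F V) : -u = u :=
  neg_eq_of_add_eq_zero_left (two_fixLo H.hO H.h2 H.hF hu)

theorem neg_eq_fixUp (H : Hyp F V) {u : V} (hu : u ∈ fixUp F V) : -u = u :=
  neg_eq_of_add_eq_zero_left (two_fixUp H.hO H.h2 H.hF hu)

section main

variable (H : Hyp F V) {v : V} (hv : ∀ r : F, SL2.lo r • v - v ∈ fixUp F V ⊔ fixLo F V)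

include H hv

theorem c_mem (r : F) : SL2.lo r • v - v ∈ fixLo F V := by
  by_cases hr : r = 0
  · rw [hr, SL2.lo_zero, one_smul, sub_self]; exact (fixLo F V).zero_mem
  obtain ⟨w, hw, w', hw', hc⟩ := AddSubgroup.mem_sup.1 (hv r)
  have h1 : SL2.lo r • v = v + (w + w') := by rw [hc]; abel
  have h2 := lo_lo r v
  have e : r = (r⁻¹)⁻¹ := (inv_inv r).symm
  have h3 : SL2.lo r • w = -w - ww r⁻¹ • w := by
    conv_lhs => rw [e]
    exact lo_fixUp H.hO (inv_ne_zero hr) hw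
  rw [h1, smul_add, h1, smul_add, h3, hw' r] at h2
  have h4 : ww r⁻¹ • w = w' + w' := by
    have : ww r⁻¹ • w = (w' + w') - ((v + (w + w') + (-w - ww r⁻¹ • w + w')) - v) := by abel
    rw [this, h2]; abel
  rw [two_fixLo H.hO H.h2 H.hF hw'] at h4
  have h5 : w = 0 := by
    have := congrArg (fun u => ww r⁻¹ • u) h4
    simpa [ww_ww] using this
  rw [← hc, h5, zero_add]; exact hw'

theorem c_add (r r' : F) :
    SL2.lo (r + r') • v - v = (SL2.lo r • v - v) + (SL2.lo r' • v - v) := by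
  have h := c_mem H hv r' r
  rw [smul_sub] at h
  rw [← SL2.lo_add, mul_smul]
  have : SL2.lo r • SL2.lo r' • v = SL2.lo r' • v - v + SL2.lo r • v := by rw [← h]; abel
  rw [this]; abel

theorem up_formula {s : F} (hs : s ≠ 0) :
    SL2.up s • v = -v - ww s • v - (SL2.lo s⁻¹ • v - v) := by
  have hc := c_mem H hv s⁻¹
  have h := H.hO s hs v
  have h1 : SL2.lo s⁻¹ • v = v + (SL2.lo s⁻¹ • v - v) := by abel
  have h2 : SL2.up s • SL2.lo s⁻¹ • v
      = SL2.up s • v + (-(SL2.lo s⁻¹ • v - v) - ww s • (SL2.lo s⁻¹ • v - v)) := by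
    conv_lhs => rw [h1, smul_add, up_fixLo H.hO hs hc]
  have h3 : SL2.lo s⁻¹ • SL2.up s • v
      = -v - SL2.up s • v + (SL2.lo s⁻¹ • v - v) + ww s • (SL2.lo s⁻¹ • v - v) := by
    rw [h2] at h
    rw [← sub_eq_zero, ← h]; abel
  have h4 : ww s • v = -(SL2.up s • v) - v - (SL2.lo s⁻¹ • v - v) := by
    have e : ∀ u : V, ww s • u = SL2.up s • SL2.lo s⁻¹ • SL2.up s • u := fun u => by
      rw [ww_two, mul_smul, mul_smul]
    rw [e v, h3, smul_add, smul_add, smul_sub, smul_neg, up_up, up_fixLo H.hO hs hc,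
      ww_smul_fixLo hs hc s]
    abel
  rw [h4]; abel

theorem up_ww {s : F} (hs : s ≠ 0) (t : F) :
    SL2.up t • ww s • v = ww s • v + ww s • (SL2.lo (s⁻¹ ^ 2 * t) • v - v) := by
  rw [← mul_smul, up_mul_ww hs, CharTwo.neg_eq, mul_smul, smul_sub]; abel

/-- (E3) -/
theorem e3 {s t : F} (hs : s ≠ 0) (ht : t ≠ 0) (hst : s + t ≠ 0) :
    v + v + ww t • v - ww s • v + ww (s + t) • v + (SL2.lo t⁻¹ • v - v) + (SL2.lo s⁻¹ • v - v)
      + (SL2.lo (s + t)⁻¹ • v - v) - ww s • (SL2.lo (s⁻¹ ^ 2 * t) • v - v)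
      + ww t • (SL2.lo s⁻¹ • v - v) = 0 := by
  have e : SL2.up t • SL2.up s • v = SL2.up (s + t) • v := by
    rw [← mul_smul, SL2.up_add, add_comm]
  rw [up_formula H hv hs, up_formula H hv hst, smul_sub, smul_sub, smul_neg, up_formula H hv ht,
    up_ww H hv hs, up_fixLo H.hO ht (c_mem H hv s⁻¹)] at e
  rw [← sub_eq_zero] at e
  rw [← e]; abel

/-- (E4'), in `V` -/
theorem e4 {s t : F} (hs : s ≠ 0) (ht : t ≠ 0) (hst : s + t ≠ 0) :
    ww s • (SL2.lo (s⁻¹ ^ 2 * t) • v - v) + ww t • (SL2.lo s⁻¹ • v - v)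
      + ww t • (SL2.lo (t⁻¹ ^ 2 * s) • v - v) + ww s • (SL2.lo t⁻¹ • v - v)
      = ww s • (v + v) + ww t • (v + v) := by
  have h1 := e3 H hv hs ht hst
  have h2 := e3 H hv ht hs (by rwa [add_comm])
  rw [add_comm t s] at h2
  have n1 := neg_eq_fixUp H (ww_smul_fixLo hs (c_mem H hv (s⁻¹ ^ 2 * t)))
  have n2 := neg_eq_fixUp H (ww_smul_fixLo hs (c_mem H hv t⁻¹))
  have hz : v + v ∈ fixLo F V := by
    intro r
    have h := two_fixLo H.hO H.h2 H.hF (c_mem H hv r)
    rw [smul_add]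
    have : SL2.lo r • v + SL2.lo r • v = (SL2.lo r • v - v + (SL2.lo r • v - v)) + (v + v) := by abel
    rw [this, h, zero_add]
  have n3 := neg_eq_fixUp H (ww_smul_fixLo ht hz)
  have key : -(ww s • (SL2.lo (s⁻¹ ^ 2 * t) • v - v)) + ww t • (SL2.lo s⁻¹ • v - v)
      + ww t • (SL2.lo (t⁻¹ ^ 2 * s) • v - v) + -(ww s • (SL2.lo t⁻¹ • v - v))
      = ww s • (v + v) + -(ww t • (v + v)) := by
    rw [smul_add, smul_add]
    rw [← sub_eq_zero]
    have := congrArg₂ (fun a b => a - b) h1 h2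
    simp only [sub_zero] at this
    rw [← this]; abel
  rw [n1, n2, n3] at key
  exact key

theorem mem_of_lo (hsq : ∀ a : F, ∃ b : F, b ^ 2 = a) : v ∈ fixUp F V ⊔ fixLo F V := by
  let _ := H.module
  have hsmul : ∀ (t : F) (w : fixUp F V), ((t • w : fixUp F V) : V) = sc t w.1 := fun _ _ => rfl
  have hz : v + v ∈ fixLo F V := by
    intro r
    have h := two_fixLo H.hO H.h2 H.hF (c_mem H hv r)
    rw [smul_add]
    have : SL2.lo r • v + SL2.lo r • v = (SL2.lo r • v - v + (SL2.lo r • v - v)) + (v + v) := by abel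
    rw [this, h, zero_add]
  let γ : F → fixUp F V := fun r =>
    ⟨ww (1 : F) • (SL2.lo r • v - v), ww_smul_fixLo one_ne_zero (c_mem H hv r)⟩
  let ζ : fixUp F V := ⟨ww (1 : F) • (v + v), ww_smul_fixLo one_ne_zero hz⟩
  have hγ : ∀ r, γ r = r • γ 1 := by
    refine fe_linear hsq γ ?_ ζ ?_
    · intro a b
      apply Subtype.ext
      show ww (1 : F) • (SL2.lo (a + b) • v - v) = ww (1 : F) • (SL2.lo a • v - v) + ww (1 : F) • (SL2.lo b • v - v)
      rw [c_add H hv, smul_add]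
    · intro s t hs ht
      by_cases hst : s + t = 0
      · have e : s = t := CharTwo.add_eq_zero.1 hst
        subst e
        rw [hst, zero_smul]
        have h2 : ∀ w : fixUp F V, w + w = 0 := fun w => Subtype.ext (two_fixUp H.hO H.h2 H.hF w.2)
        have : s • γ (s / s ^ 2) + s • γ (1 / s) + s • γ (s / s ^ 2) + s • γ (1 / s)
            = (s • γ (s / s ^ 2) + s • γ (s / s ^ 2)) + (s • γ (1 / s) + s • γ (1 / s)) := by abel
        rw [this, h2, h2, add_zero]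
      · apply Subtype.ext
        have h := e4 H hv hs ht hst
        rw [ww_eq_sc H hs (c_mem H hv _), ww_eq_sc H ht (c_mem H hv _), ww_eq_sc H ht (c_mem H hv _),
          ww_eq_sc H hs (c_mem H hv _), ww_eq_sc H hs hz, ww_eq_sc H ht hz] at h
        rw [add_smul]
        have e1 : t / s ^ 2 = s⁻¹ ^ 2 * t := by field_simp
        have e2 : s / t ^ 2 = t⁻¹ ^ 2 * s := by field_simp
        rw [e1, e2, one_div, one_div]
        exact h
  -- `v - γ 1` is fixed by the lower unitriangular group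
  have hfix : v - (γ 1 : V) ∈ fixLo F V := by
    intro r
    by_cases hr : r = 0
    · rw [hr, SL2.lo_zero, one_smul]
    have e : r = (r⁻¹)⁻¹ := (inv_inv r).symm
    have h3 : SL2.lo r • (γ 1 : V) = -(γ 1 : V) - ww r⁻¹ • (γ 1 : V) := by
      conv_lhs => rw [e]
      exact lo_fixUp H.hO (inv_ne_zero hr) (γ 1).2
    have h4 : ww r⁻¹ • (γ 1 : V) = SL2.lo r • v - v := by
      have h5 := congrArg (fun w : fixUp F V => (w : V)) (hγ r)
      simp only [hsmul] at h5
      rw [H.sc_eq hr (γ 1).2] at h5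
      have h6 : ww r⁻¹ = ww (-1) * hh r := by
        have := ww_neg_inv hr
        rwa [CharTwo.neg_eq] at this
      rw [h6, mul_smul, ← h5, CharTwo.neg_eq]
      show ww (1 : F) • ww (1 : F) • (SL2.lo r • v - v) = _
      rw [ww_ww]
    have h7 : SL2.lo r • (γ 1 : V) = (γ 1 : V) + (SL2.lo r • v - v) := by
      rw [h3, h4, sub_eq_add_neg, neg_eq_fixUp H (γ 1).2, neg_eq_fixLo H (c_mem H hv r)]
    rw [smul_sub, h7]
    abel
  have : v = (γ 1 : V) + (v - (γ 1 : V)) := by abel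
  rw [this]
  exact AddSubgroup.mem_sup.2 ⟨_, (γ 1).2, _, hfix, rfl⟩

end main

theorem nice_of_ord3 {F : Type*} [Field F] [Finite F] [CharP F 2] (hF : ∃ s : F, s ≠ 0 ∧ s ≠ 1)
    {V : Type*} [AddCommGroup V] [DistribMulAction (SL F) V] [Finite V]
    (h2 : TwoGrp V) (hO : Ord3 F V) : Nice F V := by
  have H : Hyp F V := ⟨hO, h2, hF⟩
  have hsq : ∀ a : F, ∃ b : F, b ^ 2 = a := by
    intro a
    obtain ⟨b, hb⟩ := (bijective_frobenius F 2).2 a
    exact ⟨b, hb⟩
  have htop : fixUp F V ⊔ fixLo F V = ⊤ := by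
    by_contra hne
    have hA : IsPGroup 2 (Cfsg.lowerUnipotentSL2 F) := by
      rintro ⟨g, hg⟩
      obtain ⟨x, rfl⟩ := SL2.mem_lower_iff.1 hg
      refine ⟨1, Subtype.ext ?_⟩
      rw [pow_one]
      show (SL2.lo x) ^ 2 = 1
      rw [sq, SL2.lo_add, CharTwo.add_self_eq_zero, SL2.lo_zero]
    have hfin : Finite (Cfsg.lowerUnipotentSL2 F) := by
      have : Finite (SL F) := by
        have := Fintype.ofFinite F
        infer_instance
      infer_instance
    obtain ⟨v, hv, hva⟩ := exists_not_mem_sub_mem' hA h2 (fixUp F V ⊔ fixLo F V) (by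
      rintro ⟨g, hg⟩ w hw
      exact sup_invariant hO g w hw) hne
    apply hv
    refine mem_of_lo H (fun r => ?_) hsq
    exact hva ⟨SL2.lo r, SL2.mem_lower_iff.2 ⟨r, rfl⟩⟩
  have hdec : ∀ v : V, ∃ v0 ∈ fixUp F V, ∃ v1 ∈ fixLo F V, v = v0 + v1 := by
    intro v
    have hv : v ∈ fixUp F V ⊔ fixLo F V := by rw [htop]; exact AddSubgroup.mem_top _
    obtain ⟨a, ha, b, hb, rfl⟩ := AddSubgroup.mem_sup.1 hv
    exact ⟨a, ha, b, hb, rfl⟩
  refine ⟨hdec, fun v h0 h1 => int_zero hO h2 h0 h1, ?_, ?_, fun ht _ hv => hLo_of hO h2 hF ht hv,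
    fun ht _ hv => hUp_of hO h2 hF ht hv⟩
  · intro v
    obtain ⟨a, ha, b, hb, rfl⟩ := hdec v
    have : a + b + (a + b) = (a + a) + (b + b) := by abel
    rw [this, two_fixUp hO h2 hF ha, two_fixLo hO h2 hF hb, add_zero]
  · intro x y v
    obtain ⟨a, ha, b, hb, rfl⟩ := hdec v
    have e : SL2.up y • (a + b) - (a + b) = SL2.up y • b - b := by rw [smul_add, ha y]; abel
    rw [e]
    by_cases hy : y = 0
    · rw [hy, SL2.up_zero, one_smul, sub_self, smul_zero]
    rw [← hLo_of hO h2 hF hy hb]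
    exact ww_smul_fixLo hy hb x

end Cfsg.Agent.Lib.Helper85.NatSL2
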